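import Cfsg.Agent.TwoF.XS.Rep
import Cfsg.Agent.Omega.Lie.HeisCover

/-!
# TwoF / XS / Sp2 : generic tools (helper75)

`heis_cod` (Heisenberg bound for `[V, z]`), `rad` (a `p`-group normalising an elementary abelian `s`-group),
`exists_stab` (a stabiliser of small index), `row88_of_rep` (no covers, no outer automorphisms of order `p`).
-/

set_option autoImplicit false

namespace Cfsg.Agent.TwoF.XS.SpTwo

open Module Gen Subgroup XE
open scoped commutatorElement

section heis

variable {p : ℕ} [Fact p.Prime] {Y : Type*} [Group Y] {V : Type*} [AddCommGroup V] [Module (ZMod p) V] [Finite V]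
  {ρ : Representation (ZMod p) Y V}

/-- the Heisenberg bound for `[V, z]` -/
theorem heis_cod {r n : ℕ} {z : Y} {x y : Fin n → Y} (h : Omega.Lie.Heis.Heis r n z x y) (hr : r ≠ p)
    (hz : ρ z ≠ 1) : orderOf ((p : ℕ) : ZMod r) * r ^ n ≤ cod ρ (zpowers z) := by
  have hH : centralizer {z} ≤ normalizer (zpowers z : Set Y) := fun g hg =>
    centralizer_le_normalizer _ (by
      rw [mem_centralizer_iff] at hg ⊢
      rintro _ ⟨m, rfl⟩
      exact ((show Commute z g from hg z rfl).zpow_left m).eq)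
  have hU : Inv ρ (centralizer {z}) (cm ρ ⊤ (zpowers z)) := inv_cm hH (inv_top _)
  let z' : centralizer {z} := ⟨z, mem_centralizer_singleton_iff.2 rfl⟩
  have h1 : Omega.Lie.Heis.Heis r n z' (fun i => ⟨x i, mem_centralizer_singleton_iff.2 (h.zx i).symm⟩)
      (fun i => ⟨y i, mem_centralizer_singleton_iff.2 (h.zy i).symm⟩) :=
    ⟨h.prime, Subtype.ext h.zr, fun i => Subtype.ext (h.xr i), fun i => Subtype.ext (h.zx i),
      fun i => Subtype.ext (h.zy i), fun i j => Subtype.ext (h.xx i j), fun i j hij => Subtype.ext (h.yx i j hij),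
      fun i => Subtype.ext (h.conj i)⟩
  have h2 : resOn ρ hU z' ≠ 1 := by
    intro h2
    apply hz
    ext v
    refine eq_of_sub_one_sq (p := p) h.zr
      (fun e => hr ((Nat.prime_dvd_prime_iff_eq Fact.out h.prime).1 e).symm) ?_
    exact congrArg Subtype.val (LinearMap.congr_fun h2 ⟨_, mem_cm (mem_zpowers z) Submodule.mem_top⟩)
  have h3 := h1.finrank_le (resOn ρ hU) (cast_ne_zero h.prime hr) h2
  rwa [Nat.card_zmod, ← cod_zpowers_eq_cm] at h3

/-- the case of extraspecial `2`-groups -/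
theorem heis_cod_two {n : ℕ} {z : Y} {x y : Fin n → Y} (h : Omega.Lie.Heis.Heis 2 n z x y) (hr : p ≠ 2)
    (hz : ρ z ≠ 1) : 2 ^ n ≤ cod ρ (zpowers z) := by
  have h1 := heis_cod h hr.symm hz
  obtain ⟨j, hj⟩ := (Fact.out : p.Prime).odd_of_ne_two hr
  have h2 : ((p : ℕ) : ZMod 2) = 1 := by
    rw [hj, Nat.cast_add, Nat.cast_mul, ZMod.natCast_self, zero_mul, zero_add, Nat.cast_one]
  rwa [h2, orderOf_one, one_mul] at h1

end heis

section rad

variable {Y : Type*} [Group Y]

/-- a group acting faithfully on `N` by conjugation -/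
theorem card_le_factorial [Finite Y] {N B : Subgroup Y} (hB : B ≤ normalizer (N : Set Y))
    (hf : ∀ b ∈ B, (∀ y ∈ N, b * y = y * b) → b = 1) : Nat.card B ≤ (Nat.card N - 1).factorial := by
  classical
  let X := {y : N // y ≠ 1}
  have hm : ∀ (b : B) (y : N), (b : Y) * y * (b : Y)⁻¹ ∈ N := fun b y => (mem_normalizer_iff.1 (hB b.2) y).1 y.2
  let : MulAction B X :=
    { smul := fun b y => ⟨⟨(b : Y) * y.1 * (b : Y)⁻¹, hm b y.1⟩, fun e => y.2 (Subtype.ext (by
        have := congrArg Subtype.val e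
        simpa using this))⟩
      one_smul := fun y => Subtype.ext (Subtype.ext (by
        show ((1 : B) : Y) * y.1 * ((1 : B) : Y)⁻¹ = y.1
        simp))
      mul_smul := fun a b y => Subtype.ext (Subtype.ext (by
        show ((a * b : B) : Y) * y.1 * ((a * b : B) : Y)⁻¹ = a * (b * y.1 * (b : Y)⁻¹) * (a : Y)⁻¹
        simp [mul_assoc])) }
  have h1 : Function.Injective (MulAction.toPermHom B X) := by
    rw [injective_iff_map_eq_one]
    intro b hb
    refine Subtype.ext (hf b b.2 fun y hy => ?_)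
    by_cases e : y = 1
    · rw [e, mul_one, one_mul]
    · have h2 : (b : Y) * y * (b : Y)⁻¹ = y := congrArg (fun x : X => (x.1 : Y))
        (Equiv.congr_fun hb ⟨⟨y, hy⟩, fun e' => e (congrArg Subtype.val e')⟩)
      rwa [mul_inv_eq_iff_eq_mul] at h2
  have h2 := Nat.card_le_card_of_injective _ h1
  have := Fintype.ofFinite N
  have h3 : Nat.card X = Nat.card N - 1 := by
    rw [Nat.card_eq_fintype_card, Nat.card_eq_fintype_card, Fintype.card_subtype_compl, Fintype.card_subtype_eq]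
  rwa [Nat.card_perm, h3] at h2

theorem le_normalizer_commutator {R B : Subgroup Y} (hB : B ≤ normalizer (R : Set Y)) :
    B ≤ normalizer ((⁅R, B⁆ : Subgroup Y) : Set Y) := by
  have key : ∀ b ∈ B, ∀ y ∈ ⁅R, B⁆, b * y * b⁻¹ ∈ ⁅R, B⁆ := fun b hb y hy => by
    have h1 : (⁅R, B⁆ : Subgroup Y).map (MulAut.conj b).toMonoidHom ≤ ⁅R, B⁆ := by
      rw [map_commutator]
      refine commutator_mono ?_ ?_
      · rintro _ ⟨x, hx, rfl⟩
        exact (mem_normalizer_iff.1 (hB hb) x).1 hx
      · rintro _ ⟨x, hx, rfl⟩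
        exact mul_mem (mul_mem hb hx) (inv_mem hb)
    exact h1 ⟨y, hy, rfl⟩
  intro b hb
  rw [mem_normalizer_iff]
  refine fun y => ⟨key b hb y, fun hy => ?_⟩
  have := key b⁻¹ (inv_mem hb) _ hy
  rwa [show b⁻¹ * (b * y * b⁻¹) * b⁻¹⁻¹ = y by group] at this

/-- coprime action: an element that centralises `[R, B]` centralises `R` -/
theorem comm_of_comm_commutator {R B : Subgroup Y} {s p : ℕ} (hsp : Nat.Coprime p s)
    (hB : B ≤ normalizer (R : Set Y)) (he : ∀ g ∈ R, g ^ s = 1) (hp : IsPGroup p B) {b : Y} (hb : b ∈ B)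
    (h : ∀ y ∈ ⁅R, B⁆, b * y = y * b) {y : Y} (hy : y ∈ R) : b * y = y * b := by
  obtain ⟨n, hn⟩ := hp ⟨b, hb⟩
  have hn' : b ^ p ^ n = 1 := congrArg Subtype.val hn
  have h1 : ⁅y, b⁆ ∈ ⁅R, B⁆ := commutator_mem_commutator hy hb
  set t := ⁅y, b⁆⁻¹ with ht
  have h2 : b * t = t * b := h t (inv_mem h1)
  have h3 : t ^ s = 1 := he t (inv_mem (commutator_le_of_le_normalizer hB h1))
  have h4 : ∀ k : ℕ, b ^ k * y = t ^ k * y * b ^ k := by
    intro k
    induction k with
    | zero => simp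
    | succ k ih =>
      have h5 : b * t ^ k = t ^ k * b := ((show Commute b t from h2).pow_right k).eq
      have h6 : b * y = t * y * b := by rw [ht, commutatorElement_def]; group
      rw [pow_succ', mul_assoc, ih, ← mul_assoc, ← mul_assoc, h5, mul_assoc (t ^ k), h6, pow_succ t]
      simp only [mul_assoc]
  have h5 := h4 (p ^ n)
  rw [hn', one_mul, mul_one, eq_comm, mul_eq_right] at h5
  have h6 : t = 1 := by
    have h7 := Nat.dvd_gcd (orderOf_dvd_of_pow_eq_one h5) (orderOf_dvd_of_pow_eq_one h3)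
    rwa [hsp.pow_left n, Nat.dvd_one, orderOf_eq_one_iff] at h7
  rw [ht, inv_eq_one, commutatorElement_eq_one_iff_mul_comm] at h6
  exact h6.symm

variable {k : Type*} [Field k] {V : Type*} [AddCommGroup V] [Module k V] {ρ : Representation k Y V}
  [FiniteDimensional k V] [Finite Y]

/-- **RAD**: a `p`-group `B` normalises the elementary abelian `s`-group `R`, `n < |[R, B]|`, and all non-trivial
elements of `[R, B]` have codimension at least `c`. -/
theorem rad' {R B : Subgroup Y} {s p : ℕ} [Fact p.Prime] (hs : s.Prime) (hk : (s : k) ≠ 0)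
    (hc : ∀ a ∈ R, ∀ b ∈ R, a * b = b * a) (he : ∀ g ∈ R, g ^ s = 1) (hB : B ≤ normalizer (R : Set Y))
    (hp : IsPGroup p B) {c : ℕ} (h : ∀ y ∈ ⁅R, B⁆, y ≠ 1 → c ≤ cod ρ (zpowers y)) {n : ℕ}
    (hn : n < Nat.card (⁅R, B⁆ : Subgroup Y)) : (p - 1) * (s * (n * c)) ≤ p * ((s - 1) * ((n + 1) * cod ρ B)) := by
  have hle := commutator_le_of_le_normalizer hB
  have : Fact s.Prime := ⟨hs⟩
  have hR : (Nat.card R : k) ≠ 0 := by
    obtain ⟨j, hj⟩ := (elemAb_isPGroup (elemAb_of hc he)).exists_card_eq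
    rw [hj, Nat.cast_pow]
    exact pow_ne_zero _ hk
  have h1 := coprime_bound (ρ := ρ) hc hR hB hp
  have h2 := XL.avg_ge (ρ := ρ) hs hk (fun a ha b hb => hc a (hle ha) b (hle hb)) (fun g hg => he g (hle hg)) h
  obtain ⟨d, hd⟩ : ∃ d, Nat.card (⁅R, B⁆ : Subgroup Y) = n + d + 1 := ⟨_, (Nat.add_sub_cancel' hn).symm.trans
    (by rw [Nat.succ_add])⟩
  rw [hd, Nat.add_sub_cancel] at h2
  set C := cod ρ ⁅R, B⁆
  have h3 : s * (n * c) ≤ (s - 1) * ((n + 1) * C) := by
    refine Nat.le_of_mul_le_mul_left ?_ (show 0 < n + d + 1 by omega)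
    calc (n + d + 1) * (s * (n * c)) = (n + d + 1) * n * (s * c) := by ring
      _ ≤ (n + 1) * (n + d) * (s * c) := Nat.mul_le_mul_right _ (by nlinarith)
      _ = (n + 1) * (s * ((n + d) * c)) := by ring
      _ ≤ (n + 1) * ((s - 1) * (n + d + 1) * C) := Nat.mul_le_mul_left _ h2
      _ = (n + d + 1) * ((s - 1) * ((n + 1) * C)) := by ring
  calc (p - 1) * (s * (n * c)) ≤ (p - 1) * ((s - 1) * ((n + 1) * C)) := Nat.mul_le_mul_left _ h3
    _ = (s - 1) * (n + 1) * ((p - 1) * C) := by ring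
    _ ≤ (s - 1) * (n + 1) * (p * cod ρ B) := Nat.mul_le_mul_left _ h1
    _ = p * ((s - 1) * ((n + 1) * cod ρ B)) := by ring

/-- **RAD** for a faithful action: `(n - 1)! < |B|` gives `n < |[R, B]|`. -/
theorem rad {R B : Subgroup Y} {s p : ℕ} [Fact p.Prime] (hs : s.Prime) (hsp : p ≠ s) (hk : (s : k) ≠ 0)
    (hc : ∀ a ∈ R, ∀ b ∈ R, a * b = b * a) (he : ∀ g ∈ R, g ^ s = 1) (hB : B ≤ normalizer (R : Set Y))
    (hp : IsPGroup p B) (hf : ∀ b ∈ B, (∀ y ∈ R, b * y = y * b) → b = 1) {c : ℕ}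
    (h : ∀ y ∈ ⁅R, B⁆, y ≠ 1 → c ≤ cod ρ (zpowers y)) {n : ℕ} (hn : n.factorial < Nat.card B) :
    (p - 1) * (s * ((n + 1) * c)) ≤ p * ((s - 1) * ((n + 2) * cod ρ B)) := by
  refine rad' hs hk hc he hB hp h (lt_of_not_ge fun e => ?_)
  have h1 := card_le_factorial (le_normalizer_commutator hB) fun b hb hb' => hf b hb fun y hy =>
    comm_of_comm_commutator ((Nat.coprime_primes Fact.out hs).2 hsp) hB he hp hb hb' hy
  have h2 : (Nat.card (⁅R, B⁆ : Subgroup Y) - 1).factorial ≤ n.factorial := Nat.factorial_le (by omega)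
  omega

end rad

/-- a `p`-group has a stabiliser of index at most `p ^ k` on a set whose size is not divisible by `p ^ (k + 1)` -/
theorem exists_stab {p : ℕ} [Fact p.Prime] {A X : Type*} [Group A] [Finite A] [MulAction A X] [Finite X]
    (hA : IsPGroup p A) {k : ℕ} (h : ¬ p ^ (k + 1) ∣ Nat.card X) :
    ∃ x : X, Nat.card A ≤ p ^ k * Nat.card (MulAction.stabilizer A x) := by
  classical
  by_contra! e
  apply h
  have := Fintype.ofFinite X
  have := Fintype.ofFinite (MulAction.orbitRel.Quotient A X)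
  rw [Nat.card_congr (MulAction.selfEquivSigmaOrbits A X), Nat.card_sigma]
  refine Finset.dvd_sum fun o _ => ?_
  obtain ⟨j, hj⟩ := hA.index (MulAction.stabilizer A o.out)
  rw [Nat.card_coe_set_eq, ← MulAction.index_stabilizer, hj]
  refine pow_dvd_pow p (Nat.succ_le_of_lt (lt_of_not_ge fun e' => (e o.out).not_ge ?_))
  rw [← (MulAction.stabilizer A o.out).index_mul_card, hj]
  exact Nat.mul_le_mul_right _ (Nat.pow_le_pow_right (Fact.out : p.Prime).pos e')

/-- no covers and no outer automorphisms of order `p`: a bound in the faithful representations of `S` -/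
theorem row88_of_rep {p : ℕ} [Fact p.Prime] {S : Type} [Group S] (hz : Zc p S 1) (hS : center S = ⊥)
    (ho : ¬ p ∣ Nat.card (Out S))
    (h : ∀ (V : Type) [AddCommGroup V] [Module (ZMod p) V] [Finite V] (σ : Representation (ZMod p) S V),
      Function.Injective σ → ∀ A : Subgroup S, IsElementaryAbelian p A → ∀ r, small p < r → Nat.card A = p ^ r →
        2 * r + 1 ≤ cod σ A) : Row88 p S := row88_of_lo fun E hE r hr hc => by
  have hi : Function.Injective (MulAut.conj : S →* MulAut S) :=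
    (injective_iff_map_eq_one _).2 fun x hx => (conj_eq_one_iff hS).1 hx
  have h1 : (E.comap MulAut.conj).map MulAut.conj = E := by
    refine map_comap_eq_self fun α hα => ?_
    by_cases e : α = 1
    · rw [e]
      exact one_mem _
    · obtain ⟨x, hx, -⟩ := exists_inner hS ho e (hE.2 α hα)
      exact ⟨x, hx.symm⟩
  have h2 : IsElementaryAbelian p (E.comap (MulAut.conj : S →* MulAut S)) :=
    elemAb_of (fun a ha b hb => hi (by rw [map_mul, map_mul]; exact elemAb_comm hE ha hb))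
      fun a ha => hi (by rw [map_pow, map_one]; exact hE.2 _ ha)
  have h3 := lo_of_rep hz (MonoidHom.id S) (B := E.comap MulAut.conj) (n := 2 * r + 1) fun V _ _ _ σ hσ =>
    h V σ hσ _ h2 r hr (by rw [← card_map_of_injective hi, h1, hc])
  rwa [Subgroup.map_id, h1] at h3

end Cfsg.Agent.TwoF.XS.SpTwo
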