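import Cfsg.Agent.TwoF.XS.Sp2.Rad
import Cfsg.Agent.LieClassical.OrthFinite

/-!
# TwoF / XS / Sp2 : Siegel elements in characteristic two (helper75)

`Emb Q j` : `j` embeds `S` in `GL(W)` and the image contains the Siegel transformations of `Q`.
`core` : the bound for a `p`-group of isometries that fixes a singular vector.
-/

set_option autoImplicit false

namespace Cfsg.Agent.TwoF.XS.SpTwo

open Module Gen Subgroup QuadraticMap Cfsg.Agent.LieClassical.OrthCore Cfsg.Agent.LieClassical.OrthFinite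
open scoped commutatorElement

variable {F W : Type*} [Field F] [AddCommGroup W] [Module F W] {Q : QuadraticForm F W}

theorem exists_polar [FiniteDimensional F W] (hQ : Nondeg Q) (φ : W →ₗ[F] F) : ∃ b, ∀ x, polar Q b x = φ x := by
  have h1 : Function.Injective (polarBilin Q) :=
    (injective_iff_map_eq_zero _).2 fun x hx => hQ x fun y => LinearMap.congr_fun hx y
  obtain ⟨b, hb⟩ := (LinearMap.injective_iff_surjective_of_finrank_eq_finrank
    (Subspace.dual_finrank_eq (K := F) (V := W)).symm).1 h1 φ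
  exact ⟨b, fun x => LinearMap.congr_fun hb x⟩

theorem exists_dual [FiniteDimensional F W] (hQ : Nondeg Q) {v u : W} (hv : Q v = 0) (hu : Q u = 0)
    (h : polar Q v u = 0) {n : ℕ} (hn : n + 4 ≤ finrank F W) :
    ∃ a b : Fin n → W, (∀ i, polar Q v (a i) = 0) ∧ (∀ i, polar Q u (a i) = 0) ∧ (∀ i, polar Q (b i) v = 0) ∧
      (∀ i, polar Q (b i) u = 0) ∧ (∀ i, polar Q (b i) (a i) = 1) ∧ ∀ i j, i ≠ j → polar Q (b i) (a j) = 0 := by
  let f : W →ₗ[F] F × F := (polarBilin Q v).prod (polarBilin Q u)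
  have hf : ∀ x, x ∈ LinearMap.ker f ↔ polar Q v x = 0 ∧ polar Q u x = 0 := fun x => by
    rw [LinearMap.mem_ker, Prod.ext_iff]
    rfl
  have h1 := LinearMap.finrank_range_add_finrank_ker f
  have h2 : finrank F (LinearMap.range f) ≤ 2 := (Submodule.finrank_le _).trans (by simp)
  let v' : LinearMap.ker f := ⟨v, (hf v).2 ⟨polar_self_of_sing hv, by rw [polar_comm, h]⟩⟩
  let u' : LinearMap.ker f := ⟨u, (hf u).2 ⟨h, polar_self_of_sing hu⟩⟩
  let L : Submodule F (LinearMap.ker f) := Submodule.span F (Set.range ![v', u'])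
  have h3 : finrank F L ≤ 2 := (finrank_range_le_card ![v', u']).trans (by simp)
  have h4 := L.finrank_quotient_add_finrank
  have h5 : n ≤ finrank F (LinearMap.ker f ⧸ L) := by omega
  let bs := Module.finBasis F (LinearMap.ker f ⧸ L)
  choose a ha using fun i : Fin n => L.mkQ_surjective (bs (Fin.castLE h5 i))
  choose g hg using fun i : Fin n => LinearMap.exists_extend ((bs.coord (Fin.castLE h5 i)).comp L.mkQ)
  choose b hb using fun i : Fin n => exists_polar hQ (g i)
  have h6 : ∀ i (x : LinearMap.ker f), polar Q (b i) x = bs.coord (Fin.castLE h5 i) (L.mkQ x) := fun i x =>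
    (hb i x).trans (LinearMap.congr_fun (hg i) x)
  have h7 : ∀ i (x : LinearMap.ker f), x ∈ L → polar Q (b i) x = 0 := fun i x hx => by
    rw [h6, Submodule.mkQ_apply, (Submodule.Quotient.mk_eq_zero L).2 hx, map_zero]
  refine ⟨fun i => a i, b, fun i => ((hf _).1 (a i).2).1, fun i => ((hf _).1 (a i).2).2,
    fun i => h7 i v' (Submodule.subset_span ⟨0, rfl⟩), fun i => h7 i u' (Submodule.subset_span ⟨1, rfl⟩),
    fun i => ?_, fun i j hij => ?_⟩
  · rw [h6, ha, Basis.coord_apply, Basis.repr_self, Finsupp.single_eq_same]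
  · rw [h6, ha, Basis.coord_apply, Basis.repr_self,
      Finsupp.single_eq_of_ne fun e => hij (Fin.castLE_injective h5 e)]

variable {S : Type*} [Group S]

/-- an embedding whose image contains the Siegel transformations -/
structure Emb (Q : QuadraticForm F W) (j : S →* (W ≃ₗ[F] W)) : Prop where
  inj : Function.Injective j
  le : E Q ≤ j.range
  nd : Nondeg Q
  two : (2 : F) = 0

namespace Emb

variable {j : S →* (W ≃ₗ[F] W)} (H : Emb Q j) {u v w w' : W}

open Classical in
/-- the Siegel elements -/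
noncomputable def sg (u w : W) : S :=
  if h : Q u = 0 ∧ polar Q u w = 0 then (H.le (siegel_mem_E h.1 h.2)).choose else 1

theorem j_sg (hu : Q u = 0) (hw : polar Q u w = 0) : j (H.sg u w) = siegel Q u w hu hw := by
  rw [sg, dif_pos ⟨hu, hw⟩]
  exact (H.le (siegel_mem_E hu hw)).choose_spec

theorem sg_apply (hu : Q u = 0) (hw : polar Q u w = 0) (x : W) :
    j (H.sg u w) x = x + polar Q u x • w - polar Q w x • u - (Q w * polar Q u x) • u := by
  rw [H.j_sg hu hw, siegel_apply]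

theorem sg_mem (hu : Q u = 0) (hw : polar Q u w = 0) : j (H.sg u w) ∈ O Q := by
  rw [H.j_sg hu hw]
  exact siegel_mem_O hu hw

theorem sg_mul (hu : Q u = 0) (hw : polar Q u w = 0) (hw' : polar Q u w' = 0) :
    H.sg u w * H.sg u w' = H.sg u (w + w') := H.inj (by
  have h : polar Q u (w + w') = 0 := by rw [polar_add_right, hw, hw', add_zero]
  rw [map_mul, H.j_sg hu hw, H.j_sg hu hw', H.j_sg hu h, siegel_mul])

theorem sg_conj {g : S} (hg : j g ∈ O Q) (hu : Q u = 0) (hw : polar Q u w = 0) :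
    g * H.sg u w * g⁻¹ = H.sg (j g u) (j g w) := H.inj (by
  have h1 : Q (j g u) = 0 := (hg u).trans hu
  have h2 : polar Q (j g u) (j g w) = 0 := (polar_map hg u w).trans hw
  rw [map_mul, map_mul, map_inv, H.j_sg hu hw, H.j_sg h1 h2, siegel_conj hg])

theorem sg_line (hu : Q u = 0) (c : F) : H.sg u (c • u) = 1 := H.inj (by
  have h : polar Q u (c • u) = 0 := by rw [polar_smul_right, polar_self_of_sing hu, smul_zero]
  ext x
  rw [H.sg_apply hu h, map_one, QuadraticMap.map_smul, hu, polar_smul_left, smul_zero, zero_mul, zero_smul, sub_zero,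
    smul_smul, smul_eq_mul, mul_comm, add_sub_cancel_right]
  rfl)

include H in
theorem add_self (x : W) : x + x = 0 := by rw [← two_smul F, H.two, zero_smul]

theorem sg_sq (hu : Q u = 0) (hw : polar Q u w = 0) : H.sg u w ^ 2 = 1 := by
  rw [pow_two, H.sg_mul hu hw hw, H.add_self, ← zero_smul F u, H.sg_line hu]

theorem sg_comm (hu : Q u = 0) (hw : polar Q u w = 0) (hw' : polar Q u w' = 0) :
    H.sg u w * H.sg u w' = H.sg u w' * H.sg u w := by
  rw [H.sg_mul hu hw hw', H.sg_mul hu hw' hw, add_comm]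

theorem line_of_eq (h0 : u ≠ 0) (hu : Q u = 0) (hw : polar Q u w = 0) (hw' : polar Q u w' = 0)
    (h : H.sg u w = H.sg u w') : ∃ c : F, w = w' + c • u := by
  obtain ⟨x, hx⟩ := H.nd.exists_polar_eq h0 1
  have h1 := H.sg_apply hu hw x
  rw [h, H.sg_apply hu hw' x, hx] at h1
  refine ⟨polar Q w x + Q w - polar Q w' x - Q w', ?_⟩
  linear_combination (norm := module) -h1

/-- conjugation by `sg u b` -/
theorem conj_sg {a b : W} (hv : Q v = 0) (hu : Q u = 0) (h : polar Q v u = 0) (ha : polar Q v a = 0)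
    (ha' : polar Q u a = 0) (hb : polar Q b v = 0) (hb' : polar Q b u = 0) :
    H.sg u b * H.sg v a * (H.sg u b)⁻¹ = H.sg v (a - polar Q b a • u) := by
  have h1 : polar Q u b = 0 := by rw [polar_comm, hb']
  rw [H.sg_conj (H.sg_mem hu h1) hv ha, H.sg_apply hu h1, H.sg_apply hu h1, hb, ha', polar_comm _ u, h]
  simp only [zero_smul, mul_zero, add_zero, sub_zero]

theorem conj_sg_one {a b : W} (hv : Q v = 0) (hu : Q u = 0) (h : polar Q v u = 0) (ha : polar Q v a = 0)
    (ha' : polar Q u a = 0) (hb : polar Q b v = 0) (hb' : polar Q b u = 0) (e : polar Q b a = 1) :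
    H.sg u b * H.sg v a * (H.sg u b)⁻¹ = H.sg v a * H.sg v u := by
  rw [H.conj_sg hv hu h ha ha' hb hb', e, one_smul, H.sg_mul hv ha h, sub_eq_add_neg,
    neg_eq_of_add_eq_zero_left (H.add_self u)]

theorem conj_sg_zero {a b : W} (hv : Q v = 0) (hu : Q u = 0) (h : polar Q v u = 0) (ha : polar Q v a = 0)
    (ha' : polar Q u a = 0) (hb : polar Q b v = 0) (hb' : polar Q b u = 0) (e : polar Q b a = 0) :
    H.sg u b * H.sg v a = H.sg v a * H.sg u b := by
  rw [← mul_inv_eq_iff_eq_mul, H.conj_sg hv hu h ha ha' hb hb', e, zero_smul, sub_zero]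

/-- the unipotent radical of the stabiliser of a singular vector -/
def rd (hv : Q v = 0) : Subgroup S where
  carrier := {y | ∃ w, polar Q v w = 0 ∧ y = H.sg v w}
  one_mem' := ⟨0, polar_zero_right _ _, by rw [← zero_smul F v, H.sg_line hv]⟩
  mul_mem' := by
    rintro _ _ ⟨w, hw, rfl⟩ ⟨w', hw', rfl⟩
    exact ⟨w + w', by rw [polar_add_right, hw, hw', add_zero], H.sg_mul hv hw hw'⟩
  inv_mem' := by
    rintro _ ⟨w, hw, rfl⟩
    exact ⟨w, hw, inv_eq_of_mul_eq_one_left (by rw [← pow_two, H.sg_sq hv hw])⟩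

variable {p : ℕ} [Fact p.Prime] {V : Type*} [AddCommGroup V] [Module (ZMod p) V] [Finite V]
  {σ : Representation (ZMod p) S V} [FiniteDimensional F W]

/-- long root elements -/
theorem cod_z (hp : p ≠ 2) (hσ : Function.Injective σ) (hv : Q v = 0) (hu : Q u = 0) (h : polar Q v u = 0)
    (h1 : H.sg v u ≠ 1) {n : ℕ} (hn : n + 4 ≤ finrank F W) : 2 ^ n ≤ cod σ (zpowers (H.sg v u)) := by
  obtain ⟨a, b, a1, a2, b1, b2, e1, e0⟩ := exists_dual H.nd hv hu h hn
  refine heis_cod_two (x := fun i => H.sg v (a i)) (y := fun i => H.sg u (b i)) ⟨Nat.prime_two, H.sg_sq hv h,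
    fun i => H.sg_sq hv (a1 i), fun i => H.sg_comm hv h (a1 i),
    fun i => (H.conj_sg_zero hv hu h h (polar_self_of_sing hu) (b1 i) (b2 i) (b2 i)).symm,
    fun i k => H.sg_comm hv (a1 i) (a1 k),
    fun i k e => H.conj_sg_zero hv hu h (a1 k) (a2 k) (b1 i) (b2 i) (e0 i k e),
    fun i => H.conj_sg_one hv hu h (a1 i) (a2 i) (b1 i) (b2 i) (e1 i)⟩ hp fun e => h1 (hσ (by rw [e, map_one]))

/-- all Siegel elements -/
theorem cod_y [Finite F] (hp : p ≠ 2) (hσ : Function.Injective σ) (h0 : v ≠ 0) (hv : Q v = 0) (hw : polar Q v w = 0)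
    (h1 : H.sg v w ≠ 1) {n : ℕ} (hn : n + 5 ≤ finrank F W) (h7 : 7 ≤ finrank F W) :
    2 ^ n ≤ cod σ (zpowers (H.sg v w)) := by
  have h2 : w ∉ Submodule.span F {v} := fun e => by
    obtain ⟨c, rfl⟩ := Submodule.mem_span_singleton.1 e
    exact h1 (H.sg_line hv c)
  obtain ⟨g, g0, g1⟩ := LinearMap.exists_extend_of_notMem (0 : Submodule.span F {v} →ₗ[F] F) h2 1
  obtain ⟨b, hb⟩ := exists_polar H.nd g
  have b0 : polar Q b v = 0 := (hb v).trans (LinearMap.congr_fun g0 ⟨v, Submodule.mem_span_singleton_self v⟩)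
  obtain ⟨v', hv'⟩ := H.nd.exists_polar_eq h0 1
  obtain ⟨u, u0, hu, h3⟩ := exists_sing_perp (Q := Q) ![v, w, b, v'] h7
  have h4 := H.conj_sg_one hv hu (h3 0) hw (by rw [polar_comm]; exact h3 1) b0 (h3 2) ((hb w).trans g1)
  have h5 : H.sg v u ≠ 1 := fun e => by
    rw [← H.sg_line hv 0, zero_smul] at e
    obtain ⟨c, hc⟩ := H.line_of_eq h0 hv (h3 0) (polar_zero_right _ _) e
    have h6 : polar Q v' u = 0 := h3 3
    rw [hc, zero_add, polar_smul_right, polar_comm, hv', smul_eq_mul, mul_one] at h6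
    exact u0 (by rw [hc, h6, zero_smul, add_zero])
  have h6 := H.cod_z hp hσ hv hu (h3 0) h5 (n := n + 1) hn
  have h8 := cod_zpowers_mul_le (ρ := σ) (H.sg v w)⁻¹ (H.sg u b * H.sg v w * (H.sg u b)⁻¹)
  rw [cod_zpowers_conj, zpowers_inv, h4, inv_mul_cancel_left] at h8
  omega

omit [FiniteDimensional F W] in
/-- an isometry that centralises the radical has order dividing four -/
theorem pow_four {g : S} (hg : j g ∈ O Q) (h0 : v ≠ 0) (hv : Q v = 0) (hf : j g v = v)
    (h : ∀ y ∈ H.rd hv, g * y = y * g) : g ^ 4 = 1 := H.inj (by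
  have h1 : ∀ a, polar Q v a = 0 → ∃ c : F, j g a = a + c • v := fun a ha => by
    have h2 := H.sg_conj hg hv ha
    rw [h _ ⟨a, ha, rfl⟩, mul_inv_cancel_right, hf] at h2
    exact H.line_of_eq h0 hv (by rw [← hf, polar_map hg, ha]) ha h2.symm
  ext x
  obtain ⟨c, hc⟩ := h1 (j g x - x) (by
    rw [polar_sub_right, sub_eq_zero]
    conv_lhs => rw [← hf]
    exact polar_map hg v x)
  have h3 : j g (j g x) = x + c • v := by
    rw [map_sub] at hc
    have h4 := H.add_self (j g x)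
    have h5 := H.add_self x
    linear_combination (norm := module) hc + h4 - h5
  have h4 := H.add_self (c • v)
  show j (g ^ 4) x = j 1 x
  rw [map_pow, map_one, show (j g ^ 4) x = j g (j g (j g (j g x))) from rfl, h3, map_add, map_add, h3, map_smul, hf,
    map_smul, hf, add_assoc, h4, add_zero]
  rfl)

include H in
/-- the bound for a `p`-group of isometries that fixes a singular vector -/
theorem core [Finite F] [Finite S] (hp : p ≠ 2) (hσ : Function.Injective σ) {B : Subgroup S} (hB : IsPGroup p B)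
    (hO : ∀ b ∈ B, j b ∈ O Q) (h0 : v ≠ 0) (hv : Q v = 0) (hf : ∀ b ∈ B, j b v = v) {n : ℕ}
    (hn : n + 5 ≤ finrank F W) (h7 : 7 ≤ finrank F W) {t : ℕ} (ht : t.factorial < Nat.card B) :
    (p - 1) * (2 * ((t + 1) * 2 ^ n)) ≤ p * ((t + 2) * cod σ B) := by
  have key : ∀ b ∈ B, ∀ y ∈ H.rd hv, b * y * b⁻¹ ∈ H.rd hv := by
    rintro b hb _ ⟨a, ha, rfl⟩
    refine ⟨j b a, by rw [← hf b hb, polar_map (hO b hb), ha], ?_⟩
    rw [H.sg_conj (hO b hb) hv ha, hf b hb]
  have hN : B ≤ normalizer (H.rd hv : Set S) := fun b hb => mem_normalizer_iff.2 fun y => ⟨key b hb y, fun hy => by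
    have := key b⁻¹ (inv_mem hb) _ hy
    rwa [show b⁻¹ * (b * y * b⁻¹) * b⁻¹⁻¹ = y by group] at this⟩
  have := rad (ρ := σ) (R := H.rd hv) (c := 2 ^ n) Nat.prime_two hp (XE.cast_ne_zero Nat.prime_two hp.symm)
    (by rintro _ ⟨a, ha, rfl⟩ _ ⟨b, hb, rfl⟩; exact H.sg_comm hv ha hb)
    (by rintro _ ⟨a, ha, rfl⟩; exact H.sg_sq hv ha) hN hB
    (fun b hb hc => by
      obtain ⟨k, hk⟩ := hB ⟨b, hb⟩
      have h1 := Nat.dvd_gcd (orderOf_dvd_of_pow_eq_one (show b ^ p ^ k = 1 from congrArg Subtype.val hk))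
        (orderOf_dvd_of_pow_eq_one (H.pow_four (hO b hb) h0 hv (hf b hb) hc))
      rwa [show Nat.gcd (p ^ k) 4 = 1 from
        Nat.Coprime.pow k 2 ((Nat.coprime_primes Fact.out Nat.prime_two).2 hp), Nat.dvd_one, orderOf_eq_one_iff] at h1)
    (fun y hy h1 => by
      obtain ⟨a, ha, rfl⟩ := commutator_le_of_le_normalizer hN hy
      exact H.cod_y hp hσ h0 hv ha h1 hn h7) ht
  rwa [Nat.add_one_sub_one, one_mul] at this

end Emb

end Cfsg.Agent.TwoF.XS.SpTwo
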